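import Cfsg.Agent.H828.MonC.SevenA

/-!
# Elements of order 7 are conjugate to their inverses: the elements outside of `Q ∪ C_P(w₁)` (S3852, Monster; helper828)

`Kit` : `y = q r₂`, `q ∈ Q ∖ C(w₁)`, `r₂ ∈ C_{Q₂}(w) ∖ Q`, `t` an involution with `t w t⁻¹ = w⁻¹`, `t w₁ t⁻¹ = w₁`
inverting `Q₂ / ⟨w₁⟩`; `MM y` is `[y, Q] ⟨w⟩`.
-/

set_option autoImplicit false
set_option linter.unusedSectionVars false

namespace Cfsg.Agent.H828.MonC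

open Subgroup Cfsg Cfsg.Agent.H961.SevLift Cfsg.Agent.H609.T5.Seven
open scoped Pointwise

variable {K : Type*} [Group K] {w w1 a s1 : K} {Q : Subgroup K}

/-- the situation -/
structure Kit (w w1 a s1 : K) (Q : Subgroup K) (y q r2 t : K) : Prop where
  hs : Sit w w1 a s1 Q
  hq : q ∈ Q
  hne : q * w1 ≠ w1 * q
  hr : r2 ∈ Q2 a Q
  hrw : r2 * w = w * r2
  hrQ : r2 ∉ Q
  hy : y = q * r2
  htt : t * t = 1
  htw : t * w * t⁻¹ = w⁻¹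
  htw1 : t * w1 * t⁻¹ = w1
  hinv : ∀ p ∈ Q2 a Q, t * p * t⁻¹ * p ∈ zpowers w1

namespace Kit

variable {y q r2 t : K}

theorem yw (k : Kit w w1 a s1 Q y q r2 t) : y * w = w * y := by
  rw [k.hy]
  exact mul_comm' (k.hs.comm_w k.hq) k.hrw

theorem ynorm (k : Kit w w1 a s1 Q y q r2 t) {u : K} (hu : u ∈ Q) : y * u * y⁻¹ ∈ Q := k.hs.q.norm y k.yw u hu

theorem ynorm' (k : Kit w w1 a s1 Q y q r2 t) {u : K} (hu : u ∈ Q) : y⁻¹ * u * y ∈ Q := by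
  have := k.hs.q.norm y⁻¹ (inv_comm k.yw) u hu
  rwa [inv_inv] at this

theorem cQ (k : Kit w w1 a s1 Q y q r2 t) {u : K} (hu : u ∈ Q) : y * u * y⁻¹ * u⁻¹ ∈ Q :=
  Q.mul_mem (k.ynorm hu) (Q.inv_mem hu)

/-- `[y, Q] ⟨w⟩` -/
def MM (k : Kit w w1 a s1 Q y q r2 t) : Subgroup K where
  carrier := {m | ∃ u ∈ Q, ∃ i : ℤ, m = y * u * y⁻¹ * u⁻¹ * w ^ i}
  one_mem' := ⟨1, Q.one_mem, 0, by group⟩
  mul_mem' := by
    rintro _ _ ⟨u, hu, i, rfl⟩ ⟨v, hv, j, rfl⟩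
    obtain ⟨D, hD⟩ : ∃ D, D = y * v * y⁻¹ * v⁻¹ := ⟨_, rfl⟩
    have hDQ : D ∈ Q := hD ▸ k.cQ hv
    obtain ⟨l, hl⟩ := swap k.hs hu hDQ
    refine ⟨u * v, Q.mul_mem hu hv, i + j - l, ?_⟩
    have e1 : y * (u * v) * y⁻¹ * (u * v)⁻¹ = (y * u * y⁻¹ * u⁻¹) * (u * (y * v * y⁻¹ * v⁻¹) * u⁻¹) := by group
    rw [e1, ← hD, hl]
    have hDw : ∀ n : ℤ, D * w ^ n = w ^ n * D := fun n => wz (k.hs.comm_w hDQ) n
    have e2 : w ^ i * D * w ^ j = D * w ^ (i + j) := by rw [← hDw i, mul_assoc, ← zpow_add]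
    have e3 : w ^ l * D * w ^ (i + j - l) = D * w ^ (i + j) := by
      rw [← hDw l, mul_assoc, ← zpow_add]
      congr 2
      ring
    calc y * u * y⁻¹ * u⁻¹ * w ^ i * (D * w ^ j) = y * u * y⁻¹ * u⁻¹ * (w ^ i * D * w ^ j) := by group
      _ = y * u * y⁻¹ * u⁻¹ * (w ^ l * D * w ^ (i + j - l)) := by rw [e2, e3]
      _ = y * u * y⁻¹ * u⁻¹ * (w ^ l * D) * w ^ (i + j - l) := by group
  inv_mem' := by
    rintro _ ⟨u, hu, i, rfl⟩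
    obtain ⟨D, hD⟩ : ∃ D, D = y * u⁻¹ * y⁻¹ * u⁻¹⁻¹ := ⟨_, rfl⟩
    have hDQ : D ∈ Q := hD ▸ k.cQ (Q.inv_mem hu)
    obtain ⟨l, hl⟩ := swap k.hs hu hDQ
    refine ⟨u⁻¹, Q.inv_mem hu, l - i, ?_⟩
    have hDw : ∀ n : ℤ, D * w ^ n = w ^ n * D := fun n => wz (k.hs.comm_w hDQ) n
    have e1 : (y * u * y⁻¹ * u⁻¹ * w ^ i)⁻¹ = w ^ (-i) * (u * (y * u⁻¹ * y⁻¹ * u⁻¹⁻¹) * u⁻¹) := by group
    rw [e1, ← hD, hl, ← mul_assoc, ← zpow_add, hDw]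
    congr 2
    ring

theorem mem_MM (k : Kit w w1 a s1 Q y q r2 t) {m : K} :
    m ∈ k.MM ↔ ∃ u ∈ Q, ∃ i : ℤ, m = y * u * y⁻¹ * u⁻¹ * w ^ i := Iff.rfl

theorem w_mem (k : Kit w w1 a s1 Q y q r2 t) : w ∈ k.MM := ⟨1, Q.one_mem, 1, by group⟩

theorem wi_mem (k : Kit w w1 a s1 Q y q r2 t) (i : ℤ) : w ^ i ∈ k.MM := k.MM.zpow_mem k.w_mem i

theorem c_mem (k : Kit w w1 a s1 Q y q r2 t) {u : K} (hu : u ∈ Q) : y * u * y⁻¹ * u⁻¹ ∈ k.MM :=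
  ⟨u, hu, 0, by group⟩

theorem MM_le (k : Kit w w1 a s1 Q y q r2 t) : k.MM ≤ Q := by
  rintro _ ⟨u, hu, i, rfl⟩
  exact Q.mul_mem (k.cQ hu) (Q.zpow_mem k.hs.q.mem i)

theorem MM_conj (k : Kit w w1 a s1 Q y q r2 t) {x m : K} (hx : x ∈ Q) (hm : m ∈ k.MM) : x * m * x⁻¹ ∈ k.MM := by
  obtain ⟨i, hi⟩ := swap k.hs hx (k.MM_le hm)
  rw [hi]
  exact k.MM.mul_mem (k.wi_mem i) hm

theorem yt [Finite K] (k : Kit w w1 a s1 Q y q r2 t) : ∃ m : ℤ, ¬ (7 : ℤ) ∣ m ∧ Tr w w1 y m := by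
  obtain ⟨m, hm, h1⟩ := k.hs.act_of_ne k.hq k.hne
  refine ⟨m, hm, k.yw, ?_⟩
  have h2 : r2 * w1 = w1 * r2 := comm2_w1' k
  rw [k.hy]
  calc q * r2 * w1 * (q * r2)⁻¹ = q * (r2 * w1) * r2⁻¹ * q⁻¹ := by group
    _ = q * w1 * q⁻¹ := by rw [h2]; group
    _ = w1 * w ^ m := h1
where
  comm2_w1' (k : Kit w w1 a s1 Q y q r2 t) : r2 * w1 = w1 * r2 := by
    have h1 := k.hs.comm_w (mem_Q2.1 k.hr)
    rw [← k.hs.aw]
    calc r2 * (a * w * a⁻¹) = a * (a⁻¹ * r2 * a * w) * a⁻¹ := by group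
      _ = a * (w * (a⁻¹ * r2 * a)) * a⁻¹ := by rw [h1]
      _ = a * w * a⁻¹ * r2 := by group

/-- **`[y, Q] ⟨w⟩` consists of commutators with `y`.** -/
theorem exists_c [Finite K] (k : Kit w w1 a s1 Q y q r2 t) {m : K} (hm : m ∈ k.MM) : ∃ u ∈ Q, y * u * y⁻¹ * u⁻¹ = m := by
  obtain ⟨u, hu, i, rfl⟩ := hm
  obtain ⟨l, hl, hy⟩ := k.yt
  obtain ⟨n, hn⟩ := exists_n hl i
  refine ⟨u * w1 ^ n, Q.mul_mem hu (Q.pow_mem k.hs.w1Q n), ?_⟩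
  have e1 : y * w1 ^ n * y⁻¹ = w1 ^ n * w ^ (l * n) := by
    rw [← conj_pow, hy.act, (show Commute w1 (w ^ l) from ((show Commute w w1 from k.hs.ww1).zpow_left l).symm).mul_pow,
      ← zpow_natCast (w ^ l), ← zpow_mul]
  have e2 : y * w1 ^ n * y⁻¹ * (w1 ^ n)⁻¹ = w ^ (l * n) := by
    rw [e1, wz (k.hs.comm_w (Q.pow_mem k.hs.w1Q n)), mul_inv_cancel_right]
  have e3 : w ^ (l * (n : ℤ)) = w ^ i := by
    have h1 := wpow k.hs hn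
    rw [zpow_sub, mul_inv_eq_one] at h1
    exact h1.symm
  calc y * (u * w1 ^ n) * y⁻¹ * (u * w1 ^ n)⁻¹
      = (y * u * y⁻¹ * u⁻¹) * (u * (y * w1 ^ n * y⁻¹ * (w1 ^ n)⁻¹) * u⁻¹) := by group
    _ = y * u * y⁻¹ * u⁻¹ * w ^ i := by rw [e2, e3, wconj (k.hs.comm_w hu)]

/-! ### The involution `t` -/

theorem tQ [Finite K] (k : Kit w w1 a s1 Q y q r2 t) {u : K} (hu : u ∈ Q) : t * u * t⁻¹ ∈ Q := k.hs.q.inv_mem k.htw hu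

theorem twi (k : Kit w w1 a s1 Q y q r2 t) (i : ℤ) : t * w ^ i * t⁻¹ = w ^ (-i) := by
  rw [← conj_zpow, k.htw, inv_zpow, zpow_neg]

/-- `σ(r₂) = w₁ ^ i r₂⁻¹` -/
theorem tr (k : Kit w w1 a s1 Q y q r2 t) : ∃ i : ℤ, t * r2 * t⁻¹ = w1 ^ i * r2⁻¹ := by
  obtain ⟨i, hi⟩ := mem_zpowers_iff.1 (k.hinv r2 k.hr)
  exact ⟨i, by rw [hi]; group⟩

/-- `r = y σ(y) ∈ Q` -/
theorem r_mem [Finite K] (k : Kit w w1 a s1 Q y q r2 t) : y * (t * y * t⁻¹) ∈ Q := by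
  obtain ⟨i, hi⟩ := k.tr
  have e1 : y * (t * y * t⁻¹) = q * (r2 * ((t * q * t⁻¹) * w1 ^ i) * r2⁻¹) := by
    calc y * (t * y * t⁻¹) = q * r2 * ((t * q * t⁻¹) * (t * r2 * t⁻¹)) := by rw [k.hy]; group
      _ = _ := by rw [hi]; group
  rw [e1]
  exact Q.mul_mem k.hq (k.hs.q.norm r2 k.hrw _ (Q.mul_mem (k.tQ k.hq) (Q.zpow_mem k.hs.w1Q i)))

/-- `σ` on transvections -/
theorem tTr (k : Kit w w1 a s1 Q y q r2 t) {x : K} {m : ℤ} (hx : Tr w w1 x m) : Tr w w1 (t * x * t⁻¹) (-m) where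
  cw := by
    have e : w = t * w⁻¹ * t⁻¹ := by
      have : t * w⁻¹ * t⁻¹ = (t * w * t⁻¹)⁻¹ := by group
      rw [this, k.htw, inv_inv]
    have h1 : x * w⁻¹ = w⁻¹ * x := ((show Commute x w from hx.cw).inv_right).eq
    calc t * x * t⁻¹ * w = t * x * t⁻¹ * (t * w⁻¹ * t⁻¹) := by rw [← e]
      _ = t * (x * w⁻¹) * t⁻¹ := by group
      _ = (t * w⁻¹ * t⁻¹) * (t * x * t⁻¹) := by rw [h1]; group
      _ = w * (t * x * t⁻¹) := by rw [← e]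
  act := by
    calc t * x * t⁻¹ * w1 * (t * x * t⁻¹)⁻¹ = t * x * t⁻¹ * (t * w1 * t⁻¹) * (t * x * t⁻¹)⁻¹ := by rw [k.htw1]
      _ = t * (x * w1 * x⁻¹) * t⁻¹ := by group
      _ = (t * w1 * t⁻¹) * (t * w ^ m * t⁻¹) := by rw [hx.act]; group
      _ = w1 * w ^ (-m) := by rw [k.htw1, k.twi]

/-- `r` commutes with `w₁` -/
theorem r_comm [Finite K] (k : Kit w w1 a s1 Q y q r2 t) : (y * (t * y * t⁻¹)) * w1 = w1 * (y * (t * y * t⁻¹)) := by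
  obtain ⟨m, -, hy⟩ := k.yt
  have h1 := (hy.mul (k.tTr hy)).act
  rw [add_neg_cancel, zpow_zero, mul_one] at h1
  exact mul_inv_eq_iff_eq_mul.1 h1

/-- the commutators commute with `w₁` -/
theorem c_comm [Finite K] (k : Kit w w1 a s1 Q y q r2 t) {u : K} (hu : u ∈ Q) :
    (y * u * y⁻¹ * u⁻¹) * w1 = w1 * (y * u * y⁻¹ * u⁻¹) := by
  obtain ⟨m, -, hy⟩ := k.yt
  obtain ⟨l, hl⟩ : ∃ l : ℤ, Tr w w1 u l := by
    obtain ⟨l, hl⟩ := swap k.hs hu k.hs.w1Q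
    exact ⟨l, k.hs.comm_w hu, by rw [hl, ((show Commute w w1 from k.hs.ww1).zpow_left l).eq]⟩
  have h1 := (((hy.mul hl).mul hy.inv).mul hl.inv).act
  have e : m + l + -m + -l = 0 := by ring
  rw [e, zpow_zero, mul_one] at h1
  exact mul_inv_eq_iff_eq_mul.1 h1

/-- `σ` preserves `[y, Q] ⟨w⟩` -/
theorem MM_t [Finite K] (k : Kit w w1 a s1 Q y q r2 t) {m : K} (hm : m ∈ k.MM) : t * m * t⁻¹ ∈ k.MM := by
  obtain ⟨u, hu, i, rfl⟩ := hm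
  obtain ⟨r, hr⟩ : ∃ r, r = y * (t * y * t⁻¹) := ⟨_, rfl⟩
  have hrQ : r ∈ Q := hr ▸ k.r_mem
  have hty : t * y * t⁻¹ = y⁻¹ * r := by rw [hr]; group
  obtain ⟨v, hv⟩ : ∃ v, v = t * u * t⁻¹ := ⟨_, rfl⟩
  have hvQ : v ∈ Q := hv ▸ k.tQ hu
  obtain ⟨j, hj⟩ := swap k.hs hrQ hvQ
  have e1 : t * (y * u * y⁻¹ * u⁻¹ * w ^ i) * t⁻¹ =
      (t * y * t⁻¹) * (t * u * t⁻¹) * (t * y * t⁻¹)⁻¹ * (t * u * t⁻¹)⁻¹ * (t * w ^ i * t⁻¹) := by group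
  have hyi : y⁻¹ * w ^ j = w ^ j * y⁻¹ := wz (inv_comm k.yw) j
  have e2 : t * (y * u * y⁻¹ * u⁻¹ * w ^ i) * t⁻¹ =
      w ^ j * (y * (y⁻¹ * v * y) * y⁻¹ * (y⁻¹ * v * y)⁻¹)⁻¹ * w ^ (-i) := by
    rw [e1, hty, ← hv, k.twi]
    calc y⁻¹ * r * v * (y⁻¹ * r)⁻¹ * v⁻¹ * w ^ (-i) = y⁻¹ * (r * v * r⁻¹) * y * v⁻¹ * w ^ (-i) := by group
      _ = (y⁻¹ * w ^ j) * v * y * v⁻¹ * w ^ (-i) := by rw [hj]; group
      _ = _ := by rw [hyi]; group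
  rw [e2]
  exact k.MM.mul_mem (k.MM.mul_mem (k.wi_mem j) (k.MM.inv_mem (k.c_mem (k.ynorm' hvQ)))) (k.wi_mem _)

/-! ### `r ∈ [y, Q] ⟨w⟩` -/

/-- `σ(x) x ∈ [y, Q] ⟨w⟩` -/
def SS [Finite K] (k : Kit w w1 a s1 Q y q r2 t) : Subgroup K where
  carrier := {x | x ∈ Q ∧ t * x * t⁻¹ * x ∈ k.MM}
  one_mem' := ⟨Q.one_mem, by
    have e : t * 1 * t⁻¹ * 1 = 1 := by group
    rw [e]
    exact k.MM.one_mem⟩
  mul_mem' := by
    rintro x x' ⟨hx, hm⟩ ⟨hx', hm'⟩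
    refine ⟨Q.mul_mem hx hx', ?_⟩
    obtain ⟨j, hj⟩ := swap k.hs (k.tQ hx') hx
    have e : t * (x * x') * t⁻¹ * (x * x') =
        (t * x * t⁻¹) * ((t * x' * t⁻¹) * x * (t * x' * t⁻¹)⁻¹) * (t * x' * t⁻¹ * x') := by group
    have e2 : t * x * t⁻¹ * w ^ j = w ^ j * (t * x * t⁻¹) := wz (k.hs.comm_w (k.tQ hx)) j
    have e3 : t * x * t⁻¹ * (w ^ j * x) = w ^ j * (t * x * t⁻¹ * x) := by rw [← mul_assoc, e2, mul_assoc]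
    rw [e, hj, e3]
    exact k.MM.mul_mem (k.MM.mul_mem (k.wi_mem j) hm) hm'
  inv_mem' := by
    rintro x ⟨hx, hm⟩
    refine ⟨Q.inv_mem hx, ?_⟩
    have e : t * x⁻¹ * t⁻¹ * x⁻¹ = (x * (t * x * t⁻¹ * x) * x⁻¹)⁻¹ := by group
    rw [e]
    exact k.MM.inv_mem (k.MM_conj hx hm)

theorem w1pow (h : Sit w w1 a s1 Q) {i : ℤ} (hi : (7 : ℤ) ∣ i) : w1 ^ i = 1 := by
  rw [← orderOf_dvd_iff_zpow_eq_one, h.w1o]
  exact hi

/-- `w₁` is a power of its nontrivial powers -/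
theorem w1_of_pow (h : Sit w w1 a s1 Q) {B : Subgroup K} {j : ℤ} (hj : ¬ (7 : ℤ) ∣ j) (hB : w1 ^ j ∈ B) : w1 ∈ B := by
  obtain ⟨n, hn⟩ := exists_n hj 1
  have h1 := w1pow h hn
  rw [zpow_sub, mul_inv_eq_one, zpow_one, zpow_mul] at h1
  rw [h1]
  exact B.zpow_mem hB _

/-- `Q ∩ Q₂` is abelian -/
theorem R0_abelian [Finite K] (h : Sit w w1 a s1 Q) {b c : K} (hb : b ∈ Q ⊓ Q2 a Q) (hc : c ∈ Q ⊓ Q2 a Q) :
    b * c = c * b := by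
  obtain ⟨i, hi⟩ := mem_zpowers_iff.1 (h.q.comm b hb.1 c hc.1)
  obtain ⟨j, hj⟩ := mem_zpowers_iff.1 (h.comm2 hb.2 hc.2)
  have hj7 : (7 : ℤ) ∣ j := by
    by_contra hne
    refine h.w1n (w1_of_pow h hne ?_)
    rw [hj, ← hi]
    exact zpow_mem_zpowers w i
  rw [w1pow h hj7] at hj
  have h3 := hj.symm
  rw [mul_inv_eq_one, mul_inv_eq_iff_eq_mul] at h3
  exact h3

/-- `r₂` does not centralise `Q ∩ Q₂` -/
theorem exists_ne [Finite K] (k : Kit w w1 a s1 Q y q r2 t) (h7 : ¬ 7 ^ 7 ∣ Nat.card K) :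
    ∃ ρ ∈ Q ⊓ Q2 a Q, r2 * ρ ≠ ρ * r2 := by
  by_contra hcon
  push Not at hcon
  have hp : Nat.Prime 7 := by norm_num
  obtain ⟨hc0, -⟩ := k.hs.cards h7
  obtain ⟨B, hB⟩ : ∃ B, B = (Q ⊓ Q2 a Q) ⊔ zpowers r2 := ⟨_, rfl⟩
  have hB2 : B ≤ Q2 a Q := by rw [hB]; exact sup_le inf_le_right (zpowers_le.2 k.hr)
  have h4 : 7 ^ 4 ∣ Nat.card ↥B := by
    refine card_step hp (k.hs.pgroup2.to_le hB2) (A := Q ⊓ Q2 a Q) ?_ (k := 3) (by rw [hc0])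
    rw [hB]
    refine lt_of_le_of_ne le_sup_left fun h2 => k.hrQ ?_
    have h3 : r2 ∈ Q ⊓ Q2 a Q := by
      rw [h2]
      exact mem_sup_right (mem_zpowers r2)
    exact h3.1
  have h1 : B ≤ centralizer ((Q ⊓ Q2 a Q : Subgroup K) : Set K) := by
    rw [hB]
    refine sup_le (fun b hb => mem_centralizer_iff.2 fun c hc => R0_abelian k.hs hc hb) (zpowers_le.2 ?_)
    exact mem_centralizer_iff.2 fun c hc => (hcon c hc).symm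
  have h2 : B ≤ centralizer ({r2} : Set K) := by
    rw [hB]
    exact sup_le (fun b hb => mem_centralizer_singleton_iff.2 (hcon b hb).symm)
      (zpowers_le.2 (mem_centralizer_singleton_iff.2 rfl))
  have h3 : B ≤ centralizer (B : Set K) := by
    have h4 : (Q ⊓ Q2 a Q) ⊔ zpowers r2 ≤ centralizer (B : Set K) := by
      refine sup_le (fun b hb => mem_centralizer_iff.2 fun c hc => (mem_centralizer_iff.1 (h1 hc) b hb).symm)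
        (zpowers_le.2 ?_)
      exact mem_centralizer_iff.2 fun c hc => mem_centralizer_singleton_iff.1 (h2 hc)
    rwa [← hB] at h4
  refine no_abelian k.hs (B := B.map (MulAut.conj a⁻¹).toMonoidHom) ?_ ?_ ?_
  · rintro _ ⟨b, hb, rfl⟩
    have h5 := mem_Q2.1 (hB2 hb)
    show a⁻¹ * b * a⁻¹⁻¹ ∈ Q
    rwa [inv_inv]
  · rwa [card_map_of_injective (f := (MulAut.conj a⁻¹).toMonoidHom) (MulAut.conj a⁻¹).injective]
  · rintro _ ⟨b, hb, rfl⟩ _ ⟨c, hc, rfl⟩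
    have h5 : c * b = b * c := mem_centralizer_iff.1 (h3 hb) c hc
    show a⁻¹ * b * a⁻¹⁻¹ * (a⁻¹ * c * a⁻¹⁻¹) = a⁻¹ * c * a⁻¹⁻¹ * (a⁻¹ * b * a⁻¹⁻¹)
    calc a⁻¹ * b * a⁻¹⁻¹ * (a⁻¹ * c * a⁻¹⁻¹) = a⁻¹ * (b * c) * a := by group
      _ = _ := by rw [← h5]; group

/-- the commutators modulo `⟨w⟩` -/
theorem c_eq (k : Kit w w1 a s1 Q y q r2 t) {u : K} (hu : u ∈ Q) :
    ∃ l : ℤ, y * u * y⁻¹ * u⁻¹ = w ^ l * (r2 * u * r2⁻¹ * u⁻¹) := by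
  obtain ⟨l, hl⟩ := swap k.hs k.hq (k.hs.q.norm r2 k.hrw u hu)
  refine ⟨l, ?_⟩
  calc y * u * y⁻¹ * u⁻¹ = q * (r2 * u * r2⁻¹) * q⁻¹ * u⁻¹ := by rw [k.hy]; group
    _ = _ := by rw [hl]; group

/-- `w₁ ∈ [y, Q] ⟨w⟩` -/
theorem w1_mem [Finite K] (k : Kit w w1 a s1 Q y q r2 t) (h7 : ¬ 7 ^ 7 ∣ Nat.card K) : w1 ∈ k.MM := by
  obtain ⟨ρ, hρ, hne⟩ := k.exists_ne h7
  obtain ⟨j, hj⟩ := mem_zpowers_iff.1 (k.hs.comm2 k.hr hρ.2)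
  have hj7 : ¬ (7 : ℤ) ∣ j := by
    intro h1
    apply hne
    rw [w1pow k.hs h1] at hj
    have h3 := hj.symm
    rw [mul_inv_eq_one, mul_inv_eq_iff_eq_mul] at h3
    exact h3
  refine w1_of_pow k.hs hj7 ?_
  obtain ⟨l, hl⟩ := k.c_eq hρ.1
  have h1 := k.MM.mul_mem (k.wi_mem (-l)) (k.c_mem hρ.1)
  rw [hl, hj.symm, ← mul_assoc, ← zpow_add, neg_add_cancel, zpow_zero, one_mul] at h1
  exact h1

/-- `C_Q(w₁)` is contained in `SS` -/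
theorem R1_le [Finite K] (k : Kit w w1 a s1 Q y q r2 t) (h7 : ¬ 7 ^ 7 ∣ Nat.card K) :
    Q ⊓ centralizer ({w1} : Set K) ≤ k.SS := by
  have hp : Nat.Prime 7 := by norm_num
  obtain ⟨hc0, -⟩ := k.hs.cards h7
  obtain ⟨u, hu, hur⟩ := k.hs.exists_comm k.hr k.hrQ
  obtain ⟨m, hm⟩ : ∃ m, m = y * u * y⁻¹ * u⁻¹ := ⟨_, rfl⟩
  have hmM : m ∈ k.MM := hm ▸ k.c_mem hu
  have hmQ : m ∈ Q := k.MM_le hmM
  have hm0 : m ∉ Q ⊓ Q2 a Q := by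
    intro h1
    apply hur
    obtain ⟨l, hl⟩ := k.c_eq hu
    have hw0 : w ∈ Q ⊓ Q2 a Q := ⟨k.hs.q.mem, k.hs.w_mem2⟩
    have e : u * r2 * u⁻¹ * r2⁻¹ = m⁻¹ * w ^ l := by rw [hm, hl]; group
    rw [e]
    exact (Q ⊓ Q2 a Q).mul_mem ((Q ⊓ Q2 a Q).inv_mem h1) ((Q ⊓ Q2 a Q).zpow_mem hw0 l)
  have hle : (Q ⊓ Q2 a Q) ⊔ zpowers m ≤ Q ⊓ centralizer ({w1} : Set K) :=
    sup_le k.hs.inf_le_R1 (zpowers_le.2 ⟨hmQ, mem_centralizer_singleton_iff.2 (hm ▸ k.c_comm hu)⟩)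
  have heq : (Q ⊓ Q2 a Q) ⊔ zpowers m = Q ⊓ centralizer ({w1} : Set K) := by
    apply eq_of_le_of_card_ge hle
    have h1 : 7 ^ 4 ∣ Nat.card ↥((Q ⊓ Q2 a Q) ⊔ zpowers m : Subgroup K) := by
      refine card_step hp (k.hs.q.pgroup.to_le (hle.trans inf_le_left)) (A := Q ⊓ Q2 a Q) ?_ (k := 3) (by rw [hc0])
      refine lt_of_le_of_ne le_sup_left fun h2 => hm0 ?_
      rw [h2]
      exact mem_sup_right (mem_zpowers m)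
    rw [k.hs.card_R1]
    exact Nat.le_of_dvd Nat.card_pos h1
  rw [← heq]
  refine sup_le ?_ (zpowers_le.2 ⟨hmQ, k.MM.mul_mem (k.MM_t hmM) hmM⟩)
  rintro ρ ⟨hρ, hρ2⟩
  refine ⟨hρ, ?_⟩
  exact (zpowers_le.2 (k.w1_mem h7)) (k.hinv ρ hρ2)

/-- **`r = y σ(y) ∈ [y, Q] ⟨w⟩`** -/
theorem r_mem_MM [Finite K] (k : Kit w w1 a s1 Q y q r2 t) (h7 : ¬ 7 ^ 7 ∣ Nat.card K) :
    y * (t * y * t⁻¹) ∈ k.MM := by
  obtain ⟨r, hr⟩ : ∃ r, r = y * (t * y * t⁻¹) := ⟨_, rfl⟩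
  have hrQ : r ∈ Q := hr ▸ k.r_mem
  have hrc : r * w1 = w1 * r := hr ▸ k.r_comm
  rw [← hr]
  have h1 := (k.R1_le h7 ⟨hrQ, mem_centralizer_singleton_iff.2 hrc⟩).2
  have h2 : t * r * t⁻¹ = y⁻¹ * r * y := by
    calc t * r * t⁻¹ = (t * y * t⁻¹) * ((t * t) * y * (t * t)⁻¹) := by rw [hr]; group
      _ = y⁻¹ * r * y := by rw [k.htt, hr]; group
  rw [h2] at h1
  have h3 := k.c_mem (k.ynorm' hrQ)
  have h4 := k.MM.mul_mem h3 h1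
  have e : y * (y⁻¹ * r * y) * y⁻¹ * (y⁻¹ * r * y)⁻¹ * (y⁻¹ * r * y * r) = r ^ 2 := by
    rw [pow_two]
    group
  rw [e] at h4
  have h5 : r ^ (7 ^ 5) ∈ k.MM := by
    have h6 : (⟨r, hrQ⟩ : ↥Q) ^ Nat.card ↥Q = 1 := pow_card_eq_one'
    rw [k.hs.q.card] at h6
    have h8 : r ^ (7 ^ 5) = 1 := congrArg Subtype.val h6
    rw [h8]
    exact k.MM.one_mem
  exact mem_of_coprime_pow (by norm_num) h4 h5

/-- **`y` is conjugate to its inverse.** -/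
theorem real [Finite K] (k : Kit w w1 a s1 Q y q r2 t) (h7 : ¬ 7 ^ 7 ∣ Nat.card K) : Real y := by
  obtain ⟨u, hu, e⟩ := k.exists_c (k.r_mem_MM h7)
  refine ⟨u⁻¹ * t, ?_⟩
  have e1 : t * y * t⁻¹ = y⁻¹ * (y * u * y⁻¹ * u⁻¹) := by rw [e]; group
  calc u⁻¹ * t * y * (u⁻¹ * t)⁻¹ = u⁻¹ * (t * y * t⁻¹) * u := by group
    _ = y⁻¹ := by rw [e1]; group

end Kit

/-- **All elements of order 7 are conjugate to their inverses.** -/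
theorem real_all [Finite K] {z : K} (h : Sit w w1 a s1 Q) (hz : Zed w z Q) (h7 : ¬ 7 ^ 7 ∣ Nat.card K) {x : K}
    (hx : orderOf x = 7) : Real x := by
  have hF : Fact (Nat.Prime 7) := ⟨by norm_num⟩
  obtain ⟨-, hc⟩ := h.cards h7
  have hidx : ¬ 7 ∣ (Q ⊔ (Q2 a Q ⊓ centralizer ({w} : Set K)) : Subgroup K).index := by
    intro h1
    apply h7
    rw [← (Q ⊔ (Q2 a Q ⊓ centralizer ({w} : Set K)) : Subgroup K).card_mul_index, hc, pow_succ]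
    exact Nat.mul_dvd_mul_left _ h1
  obtain ⟨g, hg⟩ := H533.T5.exists_conj_mem_of_index hidx hx
  refine Real.conj g ?_
  generalize g * x * g⁻¹ = x' at hg
  have h1 : x' ∈ ((Q : Set K) * ((Q2 a Q ⊓ centralizer ({w} : Set K) : Subgroup K) : Set K) : Set K) := by
    rw [← coe_mul_of_right_le_normalizer_left Q _ h.R2_norm]
    exact hg
  obtain ⟨q, hq, r2, hr2, rfl⟩ := h1
  have hr2w : r2 * w = w * r2 := mem_centralizer_singleton_iff.1 hr2.2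
  by_cases hqw : q * w1 = w1 * q
  · obtain ⟨g, hg⟩ := h.exists_conj h7 (r1 := q) (r2 := r2) ⟨hq, mem_centralizer_singleton_iff.2 hqw⟩ hr2
    exact Real.conj g (real_Q h hz hg)
  · by_cases hrQ : r2 ∈ Q
    · exact real_Q h hz (Q.mul_mem hq hrQ)
    · obtain ⟨z', hz', hzw1⟩ := exists_exact h hz
      have k : Kit w w1 a s1 Q (q * r2) q r2 (a * z' * a⁻¹) :=
        { hs := h
          hq := hq
          hne := hqw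
          hr := hr2.1
          hrw := hr2w
          hrQ := hrQ
          hy := rfl
          htt := by
            calc a * z' * a⁻¹ * (a * z' * a⁻¹) = a * (z' * z') * a⁻¹ := by group
              _ = 1 := by rw [hz'.zz]; group
          htw := by
            have e1 : w = a * w1⁻¹ * a⁻¹ := by
              have : a * w1⁻¹ * a⁻¹ = (a * w1 * a⁻¹)⁻¹ := by rw [conj_inv]
              rw [this, h.aw1, inv_inv]
            calc a * z' * a⁻¹ * w * (a * z' * a⁻¹)⁻¹ = a * z' * a⁻¹ * (a * w1⁻¹ * a⁻¹) * (a * z' * a⁻¹)⁻¹ := by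
                  rw [← e1]
              _ = a * (z' * w1 * z'⁻¹)⁻¹ * a⁻¹ := by group
              _ = a * w1 * a⁻¹ := by rw [hzw1, inv_inv]
              _ = w⁻¹ := h.aw1
          htw1 := by
            calc a * z' * a⁻¹ * w1 * (a * z' * a⁻¹)⁻¹ = a * z' * a⁻¹ * (a * w * a⁻¹) * (a * z' * a⁻¹)⁻¹ := by
                  rw [h.aw]
              _ = a * (z' * w) * z'⁻¹ * a⁻¹ := by group
              _ = a * w * a⁻¹ := by rw [hz'.zw]; group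
              _ = w1 := h.aw
          hinv := by
            intro p hp
            obtain ⟨i, hi⟩ := mem_zpowers_iff.1 (hz'.inv _ (mem_Q2.1 hp))
            refine mem_zpowers_iff.2 ⟨i, ?_⟩
            rw [← h.aw, conj_zpow, hi]
            group }
      exact k.real h7

end Cfsg.Agent.H828.MonC
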